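import Cfsg.Agent.Lib.FusionExamples.LySub.LyA.Upper
import Cfsg.Agent.Lib.FusionExamples.LySub.LyB.Upper
import Cfsg.Agent.Lib.FusionExamples.LySub.LyC.Upper

/-! The order of `LySub.P` is at most the order of G2(5). -/

set_option autoImplicit false
set_option maxRecDepth 100000

namespace CfsgLib.FusionExamples.LySub

open CfsgLib.SporRecognition.CosetCert
open Cfsg.Spor.Ly (Gen)

theorem bound_a : Bound rels [[(Gen.a, true)]] 8 := by
  set a : P := PresentedGroup.of Gen.a with ha
  have h8 : a ^ 8 = 1 := by
    have hmem : Cfsg.Spor.Ly.a ^ 8 ∈ extra :=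
      List.mem_append_left _ (by simp [Cfsg.Spor.Ly.extra])
    have h : PresentedGroup.mk rels (Cfsg.Spor.Ly.a ^ 8) = 1 := PresentedGroup.one_of_mem (Or.inr hmem)
    rwa [map_pow] at h
  have hset : wordSubgroup rels [[(Gen.a, true)]] = Subgroup.zpowers a := by
    rw [wordSubgroup, Subgroup.zpowers_eq_closure]
    congr 1
    ext g
    simp [evalW_eq_prod, ha]
  have hd : orderOf a ∣ 8 := orderOf_dvd_of_pow_eq_one h8
  have hpos : 0 < orderOf a := Nat.pos_of_dvd_of_pos hd (by norm_num)
  rw [Bound, hset, Nat.card_zpowers]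
  exact ⟨hpos.ne', Nat.le_of_dvd (by norm_num) hd⟩

/-- Ten generators of the whole group. -/
def gens10 : List Gen := [.a, .b, .c, .c1, .c2, .c3, .c4, .c5, .d, .e]

theorem bound_ten : Bound rels (gens10.map fun a => [(a, true)]) (3906 * (3125 * (60 * 8))) :=
  Bound.extend
    (Bound.extend
      (Bound.extend bound_a [Gen.a, Gen.b] (by decide) 60 (by norm_num) LyA.tabU LyA.sect :
        Bound rels ([Gen.a, Gen.b].map fun a => [(a, true)]) (60 * 8))
      [Gen.a, Gen.b, Gen.c, Gen.c1, Gen.c2, Gen.c3, Gen.c4, Gen.c5] (by decide) 3125 (by norm_num)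
      LyB.tabU LyB.sect)
    gens10 (by decide) 3906 (by norm_num) LyC.tabU LyC.sect

/-- A defining word for a generator: it occurs once, at the head, and the tail is over the ten. -/
def defining (a : Gen) : List (Gen × Bool) → Bool
  | [] => false
  | x :: w => x == (a, true) && w.all fun y => decide (y.1 ∈ gens10)

theorem exists_defining : ∀ a : Gen, a ∈ gens10 ∨ LyC.relW.any (defining a) = true := by
  intro a
  cases a <;> first | exact Or.inl (by decide) | exact Or.inr (by decide +kernel)

theorem finite_P : Finite P ∧ Nat.card P ≤ 5859000000 := by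
  have h := bound_ten
  have htop : wordSubgroup rels (gens10.map fun a => [(a, true)]) = ⊤ := by
    rw [eq_top_iff, ← PresentedGroup.closure_range_of rels, Subgroup.closure_le]
    rintro _ ⟨a, rfl⟩
    rcases exists_defining a with ha | ha
    · exact Subgroup.subset_closure (List.mem_map.mpr ⟨[(a, true)], List.mem_map_of_mem ha, by simp [evalW_eq_prod]⟩)
    · obtain ⟨w, hw, hd⟩ := List.any_eq_true.1 ha
      cases w with
      | nil => simp [defining] at hd
      | cons x w =>
        simp only [defining, Bool.and_eq_true, beq_iff_eq] at hd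
        obtain ⟨rfl, hall⟩ := hd
        have h1 : evalW (PresentedGroup.of (rels := rels)) ((a, true) :: w) = 1 := LyC.relW_one _ hw
        have h2 : evalW (PresentedGroup.of (rels := rels)) w ∈
            wordSubgroup rels (gens10.map fun a => [(a, true)]) := evalW_mem_wordSubgroup gens10 w hall
        rw [evalW_eq_prod, List.map_cons, List.prod_cons, ← evalW_eq_prod] at h1
        have h3 : (PresentedGroup.of a : P) = (evalW (PresentedGroup.of (rels := rels)) w)⁻¹ :=
          eq_inv_of_mul_eq_one_left h1
        rw [h3]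
        exact inv_mem h2
  rw [Bound, htop, Subgroup.card_top] at h
  exact ⟨Nat.finite_of_card_ne_zero h.1, h.2.trans (by norm_num)⟩

end CfsgLib.FusionExamples.LySub
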