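import Cfsg.Prelude.Def_Spor_Ly

/-!
The first 72 relators of the presented Lyons group (those without `z`) together with `z`: the group
generated by `a, b, c, d` in the presentation.
-/

set_option autoImplicit false

namespace CfsgLib.FusionExamples.LySub

open Cfsg.Spor.Ly (Gen)

/-- No Coxeter graph. -/
def edges : List (Gen × ℕ × Gen) := []

/-- The relators without `z`, and `z`. -/
def extra : List (FreeGroup Gen) := Cfsg.Spor.Ly.extra.take 72 ++ [Cfsg.Spor.Ly.z]

/-- The relators. -/
abbrev rels : Set (FreeGroup Gen) := Cfsg.Spor.coxRelators edges ∪ {r | r ∈ extra}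

/-- The group presented by `rels`. -/
abbrev P : Type := PresentedGroup rels

end CfsgLib.FusionExamples.LySub
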