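import Cfsg.Agent.Lib.FusionExamples.LySub.G2Checks
import Cfsg.Agent.Lib.SporRecognition.CosetCert.Upper
import Cfsg.Prelude.Def_Chevalley

/-! The map of `LySub.P` onto the Chevalley group of type G2 over `ZMod 5`. -/

set_option autoImplicit false

namespace CfsgLib.FusionExamples.LySub

open Cfsg.Lie CfsgLib.SporRecognition.CosetCert
open Cfsg.Spor.Ly (Gen)

/-- The group. -/
abbrev G5 : Subgroup (GL II (ZMod 5)) := chevG2.group (ZMod 5)

theorem mat_oneC : mat oneC = 1 := Matrix.ext fun r c => (one_ok r c).trans Matrix.one_apply.symm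

theorem mat_root (r : Fin chevG2.nroots) (t : Fin 5) :
    mat (rootC r.val t.val) = chevG2.xMat (ZMod 5) r (t.val : ZMod 5) := Matrix.ext fun i j => by
  have hr : r.val < 12 := r.isLt
  rcases (show r.val < 3 ∨ (3 ≤ r.val ∧ r.val < 6) ∨ (6 ≤ r.val ∧ r.val < 9) ∨ 9 ≤ r.val by omega) with
    h | ⟨h, h'⟩ | ⟨h, h'⟩ | h
  · exact root_ok0 r (by omega) (by omega) t i j
  · exact root_ok1 r (by omega) (by omega) t i j
  · exact root_ok2 r (by omega) (by omega) t i j
  · exact root_ok3 r (by omega) (by omega) t i j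

theorem inH_root (r : Fin chevG2.nroots) (t : Fin 5) : InH G5 (rootC r.val t.val) := by
  have h := root_inv
  simp only [List.all_eq_true, List.mem_range] at h
  have h1 := h r.val r.isLt t.val t.isLt
  have h2 := h r.val r.isLt ((5 - t.val) % 5) (Nat.mod_lt _ (by norm_num))
  have e : (5 - (5 - t.val) % 5) % 5 = t.val := by have := t.isLt; omega
  rw [e] at h2
  refine ⟨⟨mat (rootC r.val t.val), mat (rootC r.val ((5 - t.val) % 5)),
    (mul_of_prodOK h1).trans mat_oneC, (mul_of_prodOK h2).trans mat_oneC⟩, ?_, rfl⟩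
  exact Subgroup.subset_closure ⟨r, (t.val : ZMod 5), mat_root r t⟩

theorem inH_fwd : ∀ k, k < G2Data.fwd.length → InH G5 (pcode G2Data.fwd k) := by
  refine prog_mem fwd_ok fun k hk => ?_
  have h := fwdBase_ok
  simp only [List.all_eq_true, List.mem_range, Bool.or_eq_true, Bool.and_eq_true, decide_eq_true_eq,
    beq_iff_eq] at h
  rcases h k hk with rfl | ⟨h1, h2⟩
  · exact ⟨1, one_mem _, by rw [Units.val_one]; exact mat_oneC.symm⟩
  · rw [h2]
    have := inH_root ⟨(k - 1) / 4, h1⟩ ⟨(k - 1) % 4 + 1, by omega⟩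
    exact this

theorem gens_spec (a : Gen) : G2Data.valIdx.getD (gens.idxOf a) 0 < G2Data.fwd.length ∧
    mat (gv a) * mat (giv a) = 1 ∧ mat (giv a) * mat (gv a) = 1 := by
  have h := gens_ok
  simp only [List.all_eq_true, Bool.and_eq_true, decide_eq_true_eq] at h
  obtain ⟨⟨h1, h2⟩, h3⟩ := h a (mem_gens a)
  exact ⟨h1, (mul_of_prodOK h2).trans mat_oneC, (mul_of_prodOK h3).trans mat_oneC⟩

/-- The image of a generator in the general linear group. -/
def gu (a : Gen) : GL II (ZMod 5) :=
  ⟨mat (gv a), mat (giv a), (gens_spec a).2.1, (gens_spec a).2.2⟩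

theorem gu_mem (a : Gen) : gu a ∈ G5 := by
  obtain ⟨g, hg, e⟩ := inH_fwd _ (gens_spec a).1
  have : gu a = g := Units.ext e.symm
  exact this ▸ hg

theorem chain_spec : ∀ (w : List (Gen × Bool)) (cs : List ℕ) (cur : ℕ), chainOK cur w cs = true →
    mat cur * ((evalW gu w : GL II (ZMod 5)) : Matrix II II (ZMod 5)) = 1
  | [], [], cur, h => by
    rw [chainOK, beq_iff_eq] at h
    rw [h, mat_oneC, evalW_eq_prod, List.map_nil, List.prod_nil, Units.val_one, one_mul]
  | [], _ :: _, cur, h => by simp [chainOK] at h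
  | (a, b) :: w, [], cur, h => by simp [chainOK] at h
  | (a, b) :: w, c :: cs, cur, h => by
    rw [chainOK, Bool.and_eq_true] at h
    obtain ⟨h1, h2⟩ := h
    rw [evalW_eq_prod, List.map_cons, List.prod_cons, ← evalW_eq_prod, Units.val_mul, ← mul_assoc]
    rw [show mat cur * ((cond b (gu a) (gu a)⁻¹ : GL II (ZMod 5)) : Matrix II II (ZMod 5)) = mat c from ?_]
    · exact chain_spec w cs c h2
    · rw [← mul_of_prodOK h1]
      cases b <;> rfl

theorem relators_gu : ∀ r ∈ extra, FreeGroup.lift gu r = 1 := by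
  intro r hr
  have he : extra = LyC.extraW.map FreeGroup.mk := rfl
  rw [he] at hr
  obtain ⟨w, hw, rfl⟩ := List.mem_map.1 hr
  obtain ⟨k, hk, rfl⟩ := List.getElem_of_mem hw
  have h := List.all_eq_true.1 chains_ok k (List.mem_range.2 hk)
  rw [List.getD_eq_getElem _ _ hk] at h
  have h2 := chain_spec _ _ _ h
  rw [mat_oneC, one_mul] at h2
  exact Units.ext h2

theorem coxRelators_edges : Cfsg.Spor.coxRelators edges = ∅ := by
  ext r
  simp [Cfsg.Spor.coxRelators, Cfsg.Spor.coxNodes, edges]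

/-- The map to the general linear group. -/
def phiGL : P →* GL II (ZMod 5) := PresentedGroup.toGroup (f := gu) fun r hr => by
  rcases hr with hr | hr
  · rw [coxRelators_edges] at hr
    exact hr.elim
  · exact relators_gu r hr

theorem phiGL_of (a : Gen) : phiGL (PresentedGroup.of a) = gu a := PresentedGroup.toGroup.of _

/-- A subgroup containing the images of `a`, `b`, `c`, `d` contains the Chevalley group. -/
theorem G5_le_of_gens {H : Subgroup (GL II (ZMod 5))}
    (hgen : ∀ a ∈ [Gen.a, Gen.b, Gen.c, Gen.d], InH H (gv a) ∧ InH H (giv a)) : G5 ≤ H := by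
  have hbwd := prog_mem (H := H) bwd_ok fun k hk => by
    have h := bwdBase_ok
    simp only [List.all_eq_true, List.mem_range, beq_iff_eq] at h
    rw [h k hk]
    have hk8 : k < 8 := hk
    interval_cases k
    · exact (hgen .a (by simp)).1
    · exact (hgen .a (by simp)).2
    · exact (hgen .b (by simp)).1
    · exact (hgen .b (by simp)).2
    · exact (hgen .c (by simp)).1
    · exact (hgen .c (by simp)).2
    · exact (hgen .d (by simp)).1
    · exact (hgen .d (by simp)).2
  have hroot1 : ∀ r, r < 12 → InH H (rootC r 1) := fun r hr => by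
    have h := List.all_eq_true.1 outs_ok r (List.mem_range.2 hr)
    simp only [Bool.and_eq_true, decide_eq_true_eq, beq_iff_eq] at h
    rw [← h.2]
    exact hbwd _ h.1
  have hroot : ∀ r, r < 12 → ∀ t, t < 5 → InH H (rootC r t) := fun r hr t ht => by
    have hp := List.all_eq_true.1 root_pow r (List.mem_range.2 hr)
    simp only [List.all_eq_true, List.mem_range] at hp
    have h2 := InH.mul (hroot1 r hr) (hroot1 r hr) (hp 0 (by norm_num))
    have h3 := InH.mul (hroot1 r hr) h2 (hp 1 (by norm_num))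
    have h4 := InH.mul (hroot1 r hr) h3 (hp 2 (by norm_num))
    interval_cases t
    · exact ⟨1, one_mem _, by rw [Units.val_one, rootC, if_pos rfl, mat_oneC]⟩
    · exact hroot1 r hr
    · exact h2
    · exact h3
    · exact h4
  refine (Subgroup.closure_le _).2 ?_
  rintro g ⟨r, t, e⟩
  obtain ⟨t', rfl⟩ : ∃ t' : Fin 5, ((t'.val : ℕ) : ZMod 5) = t :=
    ⟨⟨t.val, ZMod.val_lt t⟩, ZMod.natCast_zmod_val t⟩
  obtain ⟨h, hh, eh⟩ := hroot r.val r.isLt t'.val t'.isLt
  have : g = h := Units.ext (e.trans ((mat_root r t').symm.trans eh.symm))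
  exact this ▸ hh

theorem range_phiGL : phiGL.range = G5 := by
  refine le_antisymm ?_ (G5_le_of_gens fun a _ =>
    ⟨⟨gu a, ⟨_, phiGL_of a⟩, rfl⟩, ⟨(gu a)⁻¹, inv_mem ⟨_, phiGL_of a⟩, rfl⟩⟩)
  rw [MonoidHom.range_eq_map, ← PresentedGroup.closure_range_of rels, MonoidHom.map_closure, Subgroup.closure_le]
  rintro _ ⟨_, ⟨a, rfl⟩, rfl⟩
  rw [phiGL_of]
  exact gu_mem a

/-- The map onto the Chevalley group. -/
def phi : P →* G5 := phiGL.codRestrict G5 fun g => range_phiGL ▸ ⟨g, rfl⟩

theorem phi_surjective : Function.Surjective phi := fun g => by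
  obtain ⟨p, hp⟩ : (g : GL II (ZMod 5)) ∈ phiGL.range := range_phiGL.symm ▸ g.2
  exact ⟨p, Subtype.ext hp⟩

end CfsgLib.FusionExamples.LySub
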