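import Cfsg.Agent.Lib.FusionExamples.LySub.Bound
import Cfsg.Agent.Lib.FusionExamples.LySub.G2Hom
import Cfsg.Agent.Lib.Chevalley.OrderG2
import Cfsg.Agent.Lib.Chevalley.SimpleData

/-!
In the presented Lyons group, a homomorphism that does not kill `a` shows that `⟨a, b, c, d⟩` is
isomorphic to G2(5).
-/

set_option autoImplicit false

namespace CfsgLib.FusionExamples.LySub

open Cfsg.Lie CfsgLib.SporRecognition.CosetCert
open Cfsg.Spor.Ly (Gen)

theorem card_G5 : Nat.card G5 = 5859000000 := by
  have h := CfsgLib.Chevalley.cardG2 (F := ZMod 5)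
  rw [one_mul, ZMod.card] at h
  rw [show Nat.card G5 = _ from h]
  decide +kernel

/-- `LySub.P` is G2(5). -/
noncomputable def equivG5 : P ≃* G5 :=
  MulEquiv.ofBijective phi (by
    obtain ⟨hfin, hle⟩ := finite_P
    haveI := hfin
    refine phi_surjective.bijective_of_nat_card_le ?_
    rw [card_G5]
    exact hle)

/-- The images of the generators in Ly. -/
def toLyImg : Gen → Cfsg.Spor.Ly
  | .z => 1
  | a => PresentedGroup.of a

theorem extraW_z : (LyC.extraW.all fun w =>
    (w == [(Gen.z, true)]) || w.all fun x => decide (x.1 ≠ Gen.z)) = true := by decide +kernel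

theorem toLyImg_extra : ∀ r ∈ extra, FreeGroup.lift toLyImg r = 1 := by
  intro r hr
  have he : extra = LyC.extraW.map FreeGroup.mk := rfl
  rw [he] at hr
  obtain ⟨w, hw, rfl⟩ := List.mem_map.1 hr
  have hcases := List.all_eq_true.1 extraW_z w hw
  rw [Bool.or_eq_true, beq_iff_eq, List.all_eq_true] at hcases
  rcases hcases with rfl | hz
  · show evalW toLyImg [(Gen.z, true)] = 1
    simp [evalW_eq_prod, toLyImg]
  · have hmem : FreeGroup.mk w ∈ Cfsg.Spor.Ly.extra := by
      have : FreeGroup.mk w ∈ extra := by rw [he]; exact List.mem_map_of_mem hw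
      rcases List.mem_append.1 this with h | h
      · exact List.mem_of_mem_take h
      · exfalso
        rw [List.mem_singleton] at h
        have h2 := congrArg (FreeGroup.lift fun a => if a = Gen.z then Multiplicative.ofAdd (1 : ℤ) else 1) h
        rw [FreeGroup.lift_apply_of, if_pos rfl, show FreeGroup.lift _ (FreeGroup.mk w) = evalW _ w from rfl,
          evalW_eq_prod, List.prod_eq_one] at h2
        · exact absurd (congrArg Multiplicative.toAdd h2) (by simp)
        · intro u hu
          obtain ⟨⟨a, b⟩, hab, rfl⟩ := List.mem_map.1 hu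
          have hne := of_decide_eq_true (hz _ hab)
          cases b <;> simp [hne]
    have h1 : PresentedGroup.mk (Cfsg.Spor.coxRelators Cfsg.Spor.Ly.edges ∪ {r | r ∈ Cfsg.Spor.Ly.extra})
        (FreeGroup.mk w) = 1 := PresentedGroup.one_of_mem (Or.inr hmem)
    rw [← evalW_of_eq_mk] at h1
    show evalW toLyImg w = 1
    refine Eq.trans ?_ h1
    rw [evalW_eq_prod, evalW_eq_prod]
    refine congrArg List.prod (List.map_congr_left ?_)
    rintro ⟨a, b⟩ hab
    have hne := of_decide_eq_true (hz _ hab)
    have : toLyImg a = PresentedGroup.of a := by cases a <;> first | rfl | exact absurd rfl hne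
    rw [this]

/-- The map to Ly. -/
def toLy : P →* Cfsg.Spor.Ly := PresentedGroup.toGroup (f := toLyImg) fun r hr => by
  rcases hr with hr | hr
  · rw [coxRelators_edges] at hr
    exact hr.elim
  · exact toLyImg_extra r hr

theorem toLy_of (a : Gen) : toLy (PresentedGroup.of a) = toLyImg a := PresentedGroup.toGroup.of _

/-- The subgroup generated by the images of `a`, `b`, `c`, `d`. -/
abbrev abcd : Subgroup Cfsg.Spor.Ly :=
  (Subgroup.closure ({Cfsg.Spor.Ly.a, Cfsg.Spor.Ly.b, Cfsg.Spor.Ly.c, Cfsg.Spor.Ly.d} : Set (FreeGroup Gen))).map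
    (PresentedGroup.mk (Cfsg.Spor.coxRelators Cfsg.Spor.Ly.edges ∪ {r | r ∈ Cfsg.Spor.Ly.extra}))

theorem range_toLy : toLy.range = abcd := by
  -- `P` is generated by the images of `a`, `b`, `c`, `d`, as G2(5) is
  have htop : Subgroup.closure ({PresentedGroup.of Gen.a, PresentedGroup.of Gen.b, PresentedGroup.of Gen.c,
      PresentedGroup.of Gen.d} : Set P) = ⊤ := by
    set S := Subgroup.closure ({PresentedGroup.of Gen.a, PresentedGroup.of Gen.b, PresentedGroup.of Gen.c,
      PresentedGroup.of Gen.d} : Set P) with hS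
    have hmap : S.map phiGL = G5 := by
      refine le_antisymm ?_ ?_
      · rw [← range_phiGL, MonoidHom.range_eq_map]
        exact Subgroup.map_mono le_top
      · have hgen : ∀ a ∈ [Gen.a, Gen.b, Gen.c, Gen.d], InH (S.map phiGL) (gv a) ∧ InH (S.map phiGL) (giv a) :=
          fun a ha => by
            have hm : PresentedGroup.of a ∈ S := Subgroup.subset_closure (by
              simp only [List.mem_cons, List.not_mem_nil, or_false] at ha
              rcases ha with rfl | rfl | rfl | rfl <;> simp)
            exact ⟨⟨gu a, ⟨_, hm, phiGL_of a⟩, rfl⟩, ⟨(gu a)⁻¹, inv_mem ⟨_, hm, phiGL_of a⟩, rfl⟩⟩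
        exact G5_le_of_gens hgen
    have hle : (⊤ : Subgroup P) ≤ S := fun p _ => by
      obtain ⟨q, hq, e⟩ : phiGL p ∈ S.map phiGL := by rw [hmap]; exact (phi p).2
      have : equivG5 q = equivG5 p := Subtype.ext e
      exact equivG5.injective this ▸ hq
    exact top_le_iff.1 hle
  rw [MonoidHom.range_eq_map, ← htop, MonoidHom.map_closure, abcd, MonoidHom.map_closure]
  congr 1
  simp only [Set.image_insert_eq, Set.image_singleton]
  rw [toLy_of, toLy_of, toLy_of, toLy_of]
  rfl

theorem toLy_injective {M : Type} [Group M] (ψ : Cfsg.Spor.Ly →* M)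
    (hψ : ψ (PresentedGroup.of Gen.a) ≠ 1) : Function.Injective toLy := by
  haveI : IsSimpleGroup P :=
    @MulEquiv.isSimpleGroup _ _ _ _ (CfsgLib.Chevalley.simpleG2 (F := ZMod 5) ⟨2, by decide, by decide⟩).1 equivG5
  rcases (inferInstance : toLy.ker.Normal).eq_bot_or_eq_top with h | h
  · exact (MonoidHom.ker_eq_bot_iff toLy).1 h
  · exfalso
    have h1 : toLy (PresentedGroup.of Gen.a) = 1 := MonoidHom.mem_ker.1 (by rw [h]; exact Subgroup.mem_top _)
    rw [toLy_of] at h1
    have h2 : (PresentedGroup.of Gen.a : Cfsg.Spor.Ly) = 1 := h1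
    exact hψ (by rw [h2, map_one])

theorem exists_equiv_G2 {M : Type} [Group M] (ψ : Cfsg.Spor.Ly →* M) (hψ : ψ (PresentedGroup.of Gen.a) ≠ 1) :
    ∃ (K : Type) (_ : Field K) (_ : Fintype K), Fintype.card K = 5 ∧ Nonempty (abcd ≃* chevG2.group K) :=
  ⟨ZMod 5, inferInstance, inferInstance, ZMod.card 5,
    ⟨((MonoidHom.ofInjective (toLy_injective ψ hψ)).trans (MulEquiv.subgroupCongr range_toLy)).symm.trans equivG5⟩⟩

end CfsgLib.FusionExamples.LySub
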