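import Cfsg.Agent.Lib.FusionExamples.LySub.G2Mat
import Cfsg.Agent.Lib.FusionExamples.LySub.G2Data
import Cfsg.Agent.Lib.FusionExamples.LySub.LyC.Tables

/-! The checks on the programs. -/

set_option autoImplicit false
set_option maxRecDepth 100000
set_option Elab.async false

namespace CfsgLib.FusionExamples.LySub

open Cfsg.Lie
open Cfsg.Spor.Ly (Gen)

/-- The generators in the order of the data. -/
def gens : List Gen := [.a, .b, .c, .d, .z, .e, .a1, .a2, .a3, .a4, .c1, .c2, .c3, .c4, .c5, .u, .x23, .x24,
  .x25, .x29, .x47, .x96, .x129, .x162, .x163, .x164, .x165, .x166, .x167, .x168, .x169, .x364, .x365,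
  .x366, .x367, .x368, .x369, .x370, .x371]

theorem mem_gens (a : Gen) : a ∈ gens := by cases a <;> decide

/-- The code of the image of a generator. -/
def gv (a : Gen) : ℕ := pcode G2Data.fwd (G2Data.valIdx.getD (gens.idxOf a) 0)

/-- The code of the inverse of the image of a generator. -/
def giv (a : Gen) : ℕ := pcode G2Data.fwd (G2Data.invIdx.getD (gens.idxOf a) 0)

/-- The code of the identity. -/
def oneC : ℕ := pcode G2Data.fwd 0

theorem gens_ok : (gens.all fun a =>
    decide (G2Data.valIdx.getD (gens.idxOf a) 0 < G2Data.fwd.length) &&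
      prodOK (gv a) (giv a) oneC && prodOK (giv a) (gv a) oneC) = true := by decide +kernel

theorem fwd_ok : progOK G2Data.fwd G2Data.fwdBase = true := by decide +kernel

theorem bwd_ok : progOK G2Data.bwd G2Data.bwdBase = true := by decide +kernel

/-- The code of `x_r(t)`. -/
def rootC (r t : ℕ) : ℕ := if t = 0 then oneC else pcode G2Data.fwd (1 + 4 * r + (t - 1))

theorem one_ok : ∀ r c : II, (ent oneC (cidx r) (cidx c) : ZMod 5) = if r = c then 1 else 0 := by
  decide +kernel

/-- An entry of `x_r(t)`. -/
def xEnt (r : Fin chevG2.nroots) (t : Fin 5) (i j : II) : ZMod 5 := chevG2.xMat (ZMod 5) r (t.val : ZMod 5) i j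

theorem root_ok0 : ∀ (r : Fin chevG2.nroots), 0 * 3 ≤ r.val → r.val < 0 * 3 + 3 →
    ∀ (t : Fin 5) (i j : II), (ent (rootC r.val t.val) (cidx i) (cidx j) : ZMod 5) =
      xEnt r t i j := by decide +kernel

theorem root_ok1 : ∀ (r : Fin chevG2.nroots), 1 * 3 ≤ r.val → r.val < 1 * 3 + 3 →
    ∀ (t : Fin 5) (i j : II), (ent (rootC r.val t.val) (cidx i) (cidx j) : ZMod 5) =
      xEnt r t i j := by decide +kernel

theorem root_ok2 : ∀ (r : Fin chevG2.nroots), 2 * 3 ≤ r.val → r.val < 2 * 3 + 3 →
    ∀ (t : Fin 5) (i j : II), (ent (rootC r.val t.val) (cidx i) (cidx j) : ZMod 5) =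
      xEnt r t i j := by decide +kernel

theorem root_ok3 : ∀ (r : Fin chevG2.nroots), 3 * 3 ≤ r.val → r.val < 3 * 3 + 3 →
    ∀ (t : Fin 5) (i j : II), (ent (rootC r.val t.val) (cidx i) (cidx j) : ZMod 5) =
      xEnt r t i j := by decide +kernel

theorem root_inv : ((List.range 12).all fun r => (List.range 5).all fun t =>
    prodOK (rootC r t) (rootC r ((5 - t) % 5)) oneC) = true := by decide +kernel

theorem root_pow : ((List.range 12).all fun r => (List.range 3).all fun t =>
    prodOK (rootC r 1) (rootC r (t + 1)) (rootC r (t + 2))) = true := by decide +kernel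

theorem fwdBase_ok : ((List.range G2Data.fwdBase).all fun k =>
    decide (k = 0) || (decide ((k - 1) / 4 < 12) &&
      pcode G2Data.fwd k == rootC ((k - 1) / 4) ((k - 1) % 4 + 1))) = true := by decide +kernel

/-- The codes of `a, a⁻¹, b, b⁻¹, c, c⁻¹, d, d⁻¹`. -/
def bwdBaseC : List ℕ := [gv .a, giv .a, gv .b, giv .b, gv .c, giv .c, gv .d, giv .d]

theorem bwdBase_ok : ((List.range G2Data.bwdBase).all fun k =>
    pcode G2Data.bwd k == bwdBaseC.getD k 0) = true := by decide +kernel

theorem outs_ok : ((List.range 12).all fun r => decide (G2Data.outs.getD r 0 < G2Data.bwd.length) &&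
    pcode G2Data.bwd (G2Data.outs.getD r 0) == rootC r 1) = true := by decide +kernel

/-- A checked chain of partial products of a word. -/
noncomputable def chainOK : ℕ → List (Gen × Bool) → List ℕ → Bool
  | cur, [], [] => cur == oneC
  | cur, (a, b) :: w, c :: cs => prodOK cur (bif b then gv a else giv a) c && chainOK c w cs
  | _, _, _ => false

theorem chains_ok : ((List.range LyC.extraW.length).all fun k =>
    chainOK oneC (LyC.extraW.getD k []) (G2Data.chains.getD k [])) = true := by decide +kernel

end CfsgLib.FusionExamples.LySub
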